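import Mathlib

/-!
A trace that generates a finite field additively and is the trace of a two-by-two matrix of
determinant one whose order is prime to the characteristic.
-/

set_option autoImplicit false

namespace Cfsg.Agent.Lib.Classical.QuadOmega.TwoGen

variable {F : Type*} [Field F] [Fintype F]

omit [Fintype F] in
/-- An additive subgroup stable under `τ` is stable under everything `τ` generates. -/
theorem eq_top_of_mul_stable {τ : F} (M : AddSubgroup F) (h1 : (1 : F) ∈ M)
    (hτ : ∀ x ∈ M, τ * x ∈ M) (hgen : ∀ K : Subring F, τ ∈ K → K = ⊤) : M = ⊤ := by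
  let K : Subring F :=
    { carrier := {x | ∀ y ∈ M, x * y ∈ M}
      one_mem' := fun y hy => by simpa using hy
      zero_mem' := fun y _ => by simp
      add_mem' := fun {a b} ha hb y hy => by rw [add_mul]; exact add_mem (ha y hy) (hb y hy)
      neg_mem' := fun {a} ha y hy => by rw [neg_mul]; exact neg_mem (ha y hy)
      mul_mem' := fun {a b} ha hb y hy => by rw [mul_assoc]; exact ha _ (hb y hy) }
  refine eq_top_iff.2 fun x _ => ?_
  have hx : x ∈ K := by rw [hgen K hτ]; trivial
  simpa using hx 1 h1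

theorem subring_eq_top_of_prime (hq : (Fintype.card F).Prime) (K : Subring F) : K = ⊤ := by
  haveI : Fact (Nat.card F).Prime := ⟨by rwa [Nat.card_eq_fintype_card]⟩
  rcases K.toAddSubgroup.eq_bot_or_eq_top_of_prime_card with e | e
  · have : (1 : F) ∈ K.toAddSubgroup := K.one_mem
    rw [e, AddSubgroup.mem_bot] at this
    exact absurd this one_ne_zero
  · refine eq_top_iff.2 fun x _ => ?_
    have : x ∈ K.toAddSubgroup := by rw [e]; trivial
    exact this

omit [Fintype F] in
theorem subring_eq_top_of_gen {ω : Fˣ} (hω : ∀ u : Fˣ, u ∈ Submonoid.powers ω) (K : Subring F)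
    (h : (ω : F) ∈ K) : K = ⊤ := by
  refine eq_top_iff.2 fun x _ => ?_
  rcases eq_or_ne x 0 with rfl | hx
  · exact K.zero_mem
  obtain ⟨n, hn⟩ := (Submonoid.mem_powers_iff _ _).1 (hω (Units.mk0 x hx))
  have := congrArg Units.val hn
  rw [Units.val_pow_eq_pow_val, Units.val_mk0] at this
  rw [← this]
  exact pow_mem h n

/-- For a generator `ω`, the trace `ω + ω⁻¹` generates the field once it has five elements. -/
theorem subring_eq_top_of_trace {ω : Fˣ} (hω : ∀ u : Fˣ, u ∈ Submonoid.powers ω)
    (hq : 5 ≤ Fintype.card F) (K : Subring F) (h : (ω : F) + (ω⁻¹ : Fˣ) ∈ K) : K = ⊤ := by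
  classical
  by_cases hK : (ω : F) ∈ K
  · exact subring_eq_top_of_gen hω K hK
  exfalso
  have hω' : (ω : F) * (ω⁻¹ : Fˣ) = 1 := Units.mul_inv ω
  have htr : ∀ n : ℕ, (ω : F) ^ n + ((ω⁻¹ : Fˣ) : F) ^ n ∈ K ∧
      (ω : F) ^ (n + 1) + ((ω⁻¹ : Fˣ) : F) ^ (n + 1) ∈ K := by
    intro n
    induction n with
    | zero => exact ⟨by rw [pow_zero, pow_zero]; exact add_mem K.one_mem K.one_mem, by simpa using h⟩
    | succ n ih =>
      refine ⟨ih.2, ?_⟩
      have := sub_mem (K.mul_mem h ih.2) ih.1
      convert this using 1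
      linear_combination (-((ω : F) ^ n) - ((ω⁻¹ : Fˣ) : F) ^ n) * hω'
  have hinv : ∀ x ∈ K, x⁻¹ ∈ K := fun x hx => by
    rcases eq_or_ne x 0 with rfl | hx0
    · simp
    have := FiniteField.pow_card_sub_one_eq_one x hx0
    rw [inv_eq_of_mul_eq_one_left (show x ^ (Fintype.card F - 2) * x = 1 by
      rw [← pow_succ, show Fintype.card F - 2 + 1 = Fintype.card F - 1 by omega, this])]
    exact pow_mem hx _
  set r := Fintype.card K
  have hr : r * r ≤ Fintype.card F := by
    rw [← Fintype.card_prod]
    refine Fintype.card_le_of_injective (fun p : K × K => (p.1 : F) + (p.2 : F) * (ω : F)) fun p p' e => ?_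
    by_cases hb : (p.2 : F) = p'.2
    · simp only [hb, add_left_inj] at e
      exact Prod.ext (Subtype.ext e) (Subtype.ext hb)
    · refine absurd ?_ hK
      have e' : (ω : F) = ((p.1 : F) - p'.1) * ((p'.2 : F) - p.2)⁻¹ := by
        rw [eq_mul_inv_iff_mul_eq₀ (sub_ne_zero.2 fun h => hb h.symm)]
        linear_combination -e
      rw [e']
      exact K.mul_mem (sub_mem p.1.2 p'.1.2) (hinv _ (sub_mem p'.2.2 p.2.2))
  have hfib : Fintype.card Fˣ ≤ 2 * r := by
    let φ : Fˣ → K := fun u => ⟨(u : F) + (u⁻¹ : Fˣ), by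
      obtain ⟨n, hn⟩ := (Submonoid.mem_powers_iff _ _).1 (hω u)
      rw [← hn, ← inv_pow, Units.val_pow_eq_pow_val, Units.val_pow_eq_pow_val]
      exact (htr n).1⟩
    refine (Finset.card_le_mul_card_image (f := φ) Finset.univ 2 fun b hb => ?_).trans
      (Nat.mul_le_mul_left 2 (Finset.card_le_univ _))
    obtain ⟨u, -, rfl⟩ := Finset.mem_image.1 hb
    refine (Finset.card_le_card (t := {u, u⁻¹}) fun v hv => ?_).trans Finset.card_le_two
    have e := congrArg Subtype.val (Finset.mem_filter.1 hv).2
    simp only [φ] at e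
    rw [Finset.mem_insert, Finset.mem_singleton]
    have e2 : ((v : F) - u) * ((v : F) * u - 1) = 0 := by
      linear_combination (v : F) * u * e - (u : F) * (Units.mul_inv v) + (v : F) * (Units.mul_inv u)
    rcases mul_eq_zero.1 e2 with h' | h'
    · exact Or.inl (Units.ext (sub_eq_zero.1 h'))
    · refine Or.inr (eq_inv_of_mul_eq_one_left (Units.ext ?_))
      rw [Units.val_mul, Units.val_one]
      exact sub_eq_zero.1 h'
  rw [Fintype.card_units] at hfib
  have hr2 : r = 2 := by
    have h2 : r * r ≤ 2 * r + 1 := by omega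
    rcases le_or_gt r 2 with h3 | h3
    · have : 2 ≤ r := by omega
      omega
    · have := Nat.mul_le_mul_right r (show 3 ≤ r by omega)
      omega
  have htwo : (2 : F) = 0 := by
    by_contra h2
    have h3 : 3 ≤ r := by
      have hm : ({0, 1, -1} : Finset F) ⊆ Finset.univ.image (fun x : K => (x : F)) := by
        intro x hx
        rw [Finset.mem_image]
        simp only [Finset.mem_insert, Finset.mem_singleton] at hx
        rcases hx with rfl | rfl | rfl
        exacts [⟨0, Finset.mem_univ _, rfl⟩, ⟨1, Finset.mem_univ _, rfl⟩, ⟨-1, Finset.mem_univ _, rfl⟩]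
      have hc : ({0, 1, -1} : Finset F).card = 3 := by
        have h1 : (1 : F) ≠ -1 := fun e => h2 (by linear_combination e)
        simp [h1, zero_ne_one]
      exact hc ▸ (Finset.card_le_card hm).trans (Finset.card_image_le.trans le_rfl)
    omega
  have hdvd : 2 ∣ Fintype.card F := by
    haveI : Fact (Nat.Prime 2) := ⟨Nat.prime_two⟩
    have : addOrderOf (1 : F) = 2 :=
      addOrderOf_eq_prime (by rw [two_nsmul, one_add_one_eq_two, htwo]) one_ne_zero
    exact this ▸ addOrderOf_dvd_card
  omega

/-- A trace generating the field with the order of its companion matrix prime to the field order. -/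
theorem exists_tau : ∃ τ : F, ∃ A : ℕ, ∃ s : ℕ → F,
    (∀ M : AddSubgroup F, (1 : F) ∈ M → (∀ x ∈ M, τ * x ∈ M) → M = ⊤) ∧
      A.Coprime (Fintype.card F) ∧ s 0 = 0 ∧ s 1 = 1 ∧ (∀ n, s (n + 2) = τ * s (n + 1) - s n) ∧
        1 ≤ A ∧ s A = 0 ∧ s (A - 1) = -1 := by
  classical
  have hcard : 1 < Fintype.card F := Fintype.one_lt_card
  have hcast : (Fintype.card F : F) = 0 := FiniteField.cast_card_eq_zero F
  -- sequences with a given recursion
  have hseq : ∀ τ : F, ∃ s : ℕ → F, s 0 = 0 ∧ s 1 = 1 ∧ ∀ n, s (n + 2) = τ * s (n + 1) - s n :=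
    fun τ => ⟨fun n => (Nat.rec (motive := fun _ => F × F) (0, 1) (fun _ p => (p.2, τ * p.2 - p.1)) n).1, rfl, rfl, fun _ => rfl⟩
  rcases Nat.lt_or_ge (Fintype.card F) 5 with hq | hq
  · have h234 : Fintype.card F = 2 ∨ Fintype.card F = 3 ∨ Fintype.card F = 4 := by omega
    rcases h234 with h | h | h
    · obtain ⟨s, s0, s1, hs⟩ := hseq 1
      rw [h] at hcast
      push_cast at hcast
      refine ⟨1, 3, s, fun M h1 hM => eq_top_of_mul_stable M h1 hM fun K _ =>
        subring_eq_top_of_prime (h ▸ Nat.prime_two) K, by rw [h]; decide, s0, s1, hs, by norm_num, ?_, ?_⟩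
      · rw [hs 1, hs 0, s0, s1]; ring
      · change s 2 = -1
        rw [hs 0, s0, s1]; linear_combination hcast
    · obtain ⟨s, s0, s1, hs⟩ := hseq 0
      refine ⟨0, 4, s, fun M h1 hM => eq_top_of_mul_stable M h1 hM fun K _ =>
        subring_eq_top_of_prime (h ▸ Nat.prime_three) K, by rw [h]; decide, s0, s1, hs, by norm_num, ?_, ?_⟩
      · rw [hs 2, hs 1, hs 0, s0, s1]; ring
      · change s 3 = -1
        rw [hs 1, hs 0, s0, s1]; ring
    · obtain ⟨ω, hω⟩ := IsCyclic.exists_monoid_generator (α := Fˣ)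
      obtain ⟨s, s0, s1, hs⟩ := hseq (ω : F)
      have h2 : (2 : F) = 0 := by
        rw [h] at hcast
        push_cast at hcast
        have : (2 : F) * 2 = 0 := by linear_combination hcast
        simpa using this
      have hω1 : (ω : F) ≠ 1 := fun e => by
        have h1 : Fintype.card Fˣ ≤ 1 := Fintype.card_le_one_iff.2 fun a b => by
          obtain ⟨i, hi⟩ := (Submonoid.mem_powers_iff _ _).1 (hω a)
          obtain ⟨j, hj⟩ := (Submonoid.mem_powers_iff _ _).1 (hω b)
          rw [← hi, ← hj, show ω = 1 from Units.ext e, one_pow, one_pow]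
        rw [Fintype.card_units] at h1
        omega
      have h3 : (ω : F) ^ 3 = 1 := by
        have := FiniteField.pow_card_sub_one_eq_one (ω : F) ω.ne_zero
        rwa [h] at this
      have hrel : (ω : F) ^ 2 + ω + 1 = 0 := by
        refine (mul_eq_zero.1 (?_ : ((ω : F) - 1) * _ = 0)).resolve_left (sub_ne_zero.2 hω1)
        linear_combination h3
      refine ⟨ω, 5, s, fun M h1 hM => eq_top_of_mul_stable M h1 hM (subring_eq_top_of_gen hω), by rw [h]; decide,
        s0, s1, hs, by norm_num, ?_, ?_⟩
      · rw [hs 3, hs 2, hs 1, hs 0, s0, s1]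
        linear_combination ((ω : F) ^ 2 - (ω : F) + 1) * hrel - 2 * (ω : F) ^ 2 * h2
      · change s 4 = -1
        rw [hs 2, hs 1, hs 0, s0, s1]
        linear_combination ((ω : F) - 1) * hrel + (1 - (ω : F)) * h2
  · obtain ⟨ω, hω⟩ := IsCyclic.exists_monoid_generator (α := Fˣ)
    have hmi : (ω : F) * (ω⁻¹ : Fˣ) = 1 := Units.mul_inv ω
    set a : F := (ω : F) with ha
    set b : F := ((ω⁻¹ : Fˣ) : F) with hb
    have hab : a - b ≠ 0 := fun e => by
      have h2 : ω ^ 2 = 1 := Units.ext (by
        rw [Units.val_pow_eq_pow_val, Units.val_one, pow_two, ← ha]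
        linear_combination hmi + a * e)
      have h1 : Fintype.card Fˣ ≤ 2 := by
        refine (Finset.card_le_card (t := {1, ω}) fun u _ => ?_).trans Finset.card_le_two
        obtain ⟨n, hn⟩ := (Submonoid.mem_powers_iff _ _).1 (hω u)
        rw [Finset.mem_insert, Finset.mem_singleton, ← hn, ← Nat.div_add_mod n 2, pow_add, pow_mul, h2, one_pow,
          one_mul]
        rcases Nat.mod_two_eq_zero_or_one n with h | h <;> simp [h]
      rw [Fintype.card_units] at h1
      omega
    have hpa : a ^ (Fintype.card F - 1) = 1 := FiniteField.pow_card_sub_one_eq_one _ (Units.ne_zero _)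
    have hpb : b ^ (Fintype.card F - 1) = 1 := FiniteField.pow_card_sub_one_eq_one _ (Units.ne_zero _)
    refine ⟨a + b, Fintype.card F - 1, fun n => (a ^ n - b ^ n) / (a - b), fun M h1 hM =>
      eq_top_of_mul_stable M h1 hM (subring_eq_top_of_trace hω hq), ?_, by simp, ?_, fun n => ?_, by omega, ?_, ?_⟩
    · exact (Nat.coprime_self_sub_right (m := 1) (n := Fintype.card F) (by omega)).2 (Nat.coprime_one_right _) |>.symm
    · simp [div_self hab]
    · field_simp
      linear_combination (b ^ n - a ^ n) * hmi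
    · simp [hpa, hpb]
    · have h' : Fintype.card F - 1 - 1 + 1 = Fintype.card F - 1 := by omega
      have ea : a ^ (Fintype.card F - 1 - 1) = b := by
        have := hpa
        rw [← h', pow_succ] at this
        linear_combination b * this - a ^ (Fintype.card F - 1 - 1) * hmi
      have eb : b ^ (Fintype.card F - 1 - 1) = a := by
        have := hpb
        rw [← h', pow_succ] at this
        linear_combination a * this - b ^ (Fintype.card F - 1 - 1) * hmi
      simp only [ea, eb]
      rw [div_eq_iff hab]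
      ring

end Cfsg.Agent.Lib.Classical.QuadOmega.TwoGen
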